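import Cfsg.Agent.H319.FC.Defs

/-!
# Tori of `SL₂(2^f)` (helper193, S5764, task SP4G-F1)

`stF1` : `StF1 F` for a finite field `F` of characteristic two with at least four elements.
-/

set_option autoImplicit false
set_option linter.unusedSectionVars false

namespace Cfsg.Agent.H193.FC

open Matrix Cfsg.Agent.H319.FC

universe u

variable {F : Type u} [Field F]

local notation "M₂" => Matrix (Fin 2) (Fin 2) F
local notation "SL₂" => SpecialLinearGroup (Fin 2) F

section char2

variable [CharP F 2]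

theorem ch2 (g : SL₂) : g.1 * g.1 = g.1.trace • g.1 + 1 := by
  have hd := g.2
  rw [det_fin_two] at hd
  have h2 : (2 : F) = 0 := CharTwo.two_eq_zero
  ext i j
  fin_cases i <;> fin_cases j <;>
    simp [Matrix.mul_apply, Fin.sum_univ_two, trace_fin_two] <;>
    first | ring1 | linear_combination (-hd) + (g.1 0 1 * g.1 1 0 - g.1 0 0 * g.1 1 1) * h2 | linear_combination (hd) - h2 | linear_combination (-hd) - h2

theorem det_comb (a b : F) (z : SL₂) : (a • (1 : M₂) + b • z.1).det = a ^ 2 + z.1.trace * a * b + b ^ 2 := by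
  have hd := z.2
  rw [det_fin_two] at hd ⊢
  simp [trace_fin_two]
  linear_combination b ^ 2 * hd

theorem trace_comb (a b : F) (z : SL₂) : (a • (1 : M₂) + b • z.1).trace = b * z.1.trace := by
  have h2 : (2 : F) = 0 := CharTwo.two_eq_zero
  rw [trace_add, trace_smul, trace_smul, trace_one, smul_eq_mul, smul_eq_mul]
  simp [h2]

theorem comb_inj {z : SL₂} (ht : z.1.trace ≠ 0) {a b a' b' : F}
    (h : a • (1 : M₂) + b • z.1 = a' • 1 + b' • z.1) : a = a' ∧ b = b' := by
  have h1 := congrArg Matrix.trace h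
  rw [trace_comb, trace_comb] at h1
  have h2 := mul_right_cancel₀ ht h1
  refine ⟨?_, h2⟩
  rw [h2] at h
  have h3 := add_right_cancel h
  have h4 := congrFun (congrFun h3 0) 0
  simpa using h4

theorem exists_comb {z : SL₂} (ht : z.1.trace ≠ 0) {M : M₂} (h : M * z.1 = z.1 * M) :
    ∃ a b : F, M = a • (1 : M₂) + b • z.1 := by
  have h2 : (2 : F) = 0 := CharTwo.two_eq_zero
  obtain ⟨b, hb⟩ : ∃ b, b * z.1.trace = M.trace := ⟨M.trace / z.1.trace, div_mul_cancel₀ _ ht⟩
  refine ⟨M 0 0 + b * z.1 0 0, b, ?_⟩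
  rw [trace_fin_two] at ht hb
  rw [trace_fin_two] at hb
  have h01 := congrFun (congrFun h 0) 1
  have h10 := congrFun (congrFun h 1) 0
  simp only [Matrix.mul_apply, Fin.sum_univ_two] at h01 h10
  ext i j
  fin_cases i <;> fin_cases j
  · simp
    linear_combination (-(b * z.1 0 0)) * h2
  · simp
    apply mul_left_cancel₀ ht
    linear_combination h01 - (z.1 0 1) * hb - (z.1 0 1 * (M 0 0) - z.1 0 0 * M 0 1 ) * h2
  · simp
    apply mul_left_cancel₀ ht
    linear_combination (-1) * h10 - (z.1 1 0) * hb + (z.1 0 0 * M 1 0 - z.1 1 0 * M 0 0 ) * h2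
  · simp
    linear_combination (-1) * hb + (-(M 0 0)) * h2

theorem comm_comb (a b : F) (z : SL₂) : (a • (1 : M₂) + b • z.1) * z.1 = z.1 * (a • (1 : M₂) + b • z.1) := by
  rw [add_mul, mul_add, smul_mul_assoc, mul_smul_comm, one_mul, mul_one, smul_mul_assoc, mul_smul_comm]

theorem trace_ne_zero {z : SL₂} (hz : z ≠ 1) (ho : Odd (orderOf z)) : z.1.trace ≠ 0 := by
  intro h
  have h1 := ch2 z
  rw [h, zero_smul, zero_add] at h1
  have h2 : z ^ 2 = 1 := by
    rw [pow_two]
    exact Subtype.ext h1
  have h3 := orderOf_dvd_of_pow_eq_one h2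
  rcases (Nat.dvd_prime Nat.prime_two).1 h3 with h4 | h4
  · exact hz (orderOf_eq_one_iff.1 h4)
  · rw [h4] at ho
    exact absurd ho (by decide)

theorem mem_cent {z y : SL₂} : y ∈ Subgroup.centralizer ({z} : Set SL₂) ↔ y.1 * z.1 = z.1 * y.1 := by
  rw [Subgroup.mem_centralizer_singleton_iff]
  constructor
  · intro h
    exact congrArg Subtype.val h
  · intro h
    exact Subtype.ext h

/-- nontrivial elements of the torus have the same centralizer -/
theorem cent_eq {z y : SL₂} (ht : z.1.trace ≠ 0) (hy : y ∈ Subgroup.centralizer ({z} : Set SL₂)) (hy1 : y ≠ 1) :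
    y.1.trace ≠ 0 ∧ Subgroup.centralizer ({y} : Set SL₂) = Subgroup.centralizer ({z} : Set SL₂) := by
  obtain ⟨a, b, hab⟩ := exists_comb ht (mem_cent.1 hy)
  have hb : b ≠ 0 := by
    rintro rfl
    have hd := y.2
    rw [hab, det_comb] at hd
    have h1 : a ^ 2 = 1 := by linear_combination hd
    have h2 : a = 1 := by
      have h3 : (a - 1) ^ 2 = 0 := by
        have h2 : (2 : F) = 0 := CharTwo.two_eq_zero
        linear_combination h1 + (1 - a) * h2
      exact sub_eq_zero.1 (pow_eq_zero_iff (two_ne_zero)|>.1 h3)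
    apply hy1
    apply Subtype.ext
    rw [hab, h2, zero_smul, add_zero, one_smul]
    rfl
  have hty : y.1.trace ≠ 0 := by
    rw [hab, trace_comb]
    exact mul_ne_zero hb ht
  refine ⟨hty, ?_⟩
  ext x
  rw [mem_cent, mem_cent]
  constructor
  · intro h
    rw [hab, mul_add, add_mul, mul_smul_comm, smul_mul_assoc, mul_one, one_mul, mul_smul_comm, smul_mul_assoc] at h
    exact smul_right_injective _ hb (add_left_cancel h)
  · intro h
    rw [hab, mul_add, add_mul, mul_smul_comm, smul_mul_assoc, mul_one, one_mul, mul_smul_comm, smul_mul_assoc, h]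

/-! ### the torus is cyclic -/

theorem mul_comb (a b a' b' : F) (z : SL₂) : (a • (1 : M₂) + b • z.1) * (a' • 1 + b' • z.1) =
    (a * a' + b * b') • (1 : M₂) + (a * b' + b * a' + b * b' * z.1.trace) • z.1 := by
  rw [add_mul, mul_add, mul_add, smul_mul_smul_comm, smul_mul_smul_comm, smul_mul_smul_comm, smul_mul_smul_comm, ch2,
    one_mul, one_mul, mul_one, smul_add, smul_smul, add_smul, add_smul, add_smul]
  abel

theorem isCyclic_cent [Finite F] {z : SL₂} (ht : z.1.trace ≠ 0) :
    IsCyclic (Subgroup.centralizer ({z} : Set SL₂)) ∧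
      ∀ x ∈ Subgroup.centralizer ({z} : Set SL₂), x ^ 2 = 1 → x = 1 := by
  let K := AlgebraicClosure F
  have hK : CharP K 2 := charP_of_injective_algebraMap (algebraMap F K).injective 2
  have hK2 : (2 : K) = 0 := CharTwo.two_eq_zero
  obtain ⟨t, htt⟩ : ∃ t : K, t = algebraMap F K z.1.trace := ⟨_, rfl⟩
  obtain ⟨l, hl⟩ : ∃ l : K, l * l = t * l + 1 := by
    obtain ⟨l, hl⟩ := IsAlgClosed.exists_root
      ((Polynomial.X ^ 2 + Polynomial.C t * Polynomial.X + Polynomial.C 1 : Polynomial K)) (by
        have : (Polynomial.X ^ 2 + Polynomial.C t * Polynomial.X + Polynomial.C 1 : Polynomial K) =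
          Polynomial.C 1 * Polynomial.X ^ 2 + Polynomial.C t * Polynomial.X + Polynomial.C 1 := by simp
        rw [this, Polynomial.degree_quadratic one_ne_zero]
        norm_num)
    refine ⟨l, ?_⟩
    have h1 : l ^ 2 + t * l + 1 = 0 := by simpa [Polynomial.IsRoot] using hl
    linear_combination h1 - (t * l + 1) * hK2
  have ht0 : t ≠ 0 := by
    rw [htt]
    simpa using ht
  have key : ∀ x : Subgroup.centralizer ({z} : Set SL₂), ∃ ab : F × F, x.1.1 = ab.1 • (1 : M₂) + ab.2 • z.1 := by
    intro x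
    obtain ⟨a, b, h⟩ := exists_comb ht (mem_cent.1 x.2)
    exact ⟨(a, b), h⟩
  choose p hp using key
  have hp' : ∀ (x : Subgroup.centralizer ({z} : Set SL₂)) (a b : F), x.1.1 = a • (1 : M₂) + b • z.1 → p x = (a, b) := by
    intro x a b h
    obtain ⟨h1, h2⟩ := comb_inj ht ((hp x).symm.trans h)
    exact Prod.ext h1 h2
  let f : Subgroup.centralizer ({z} : Set SL₂) →* K :=
    { toFun := fun x => algebraMap F K (p x).1 + algebraMap F K (p x).2 * l
      map_one' := by
        rw [hp' 1 1 0 (by
          change (1 : M₂) = _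
          rw [one_smul, zero_smul, add_zero])]
        simp
      map_mul' := by
        intro x y
        have h1 : (x * y).1.1 = ((p x).1 * (p y).1 + (p x).2 * (p y).2) • (1 : M₂) +
            ((p x).1 * (p y).2 + (p x).2 * (p y).1 + (p x).2 * (p y).2 * z.1.trace) • z.1 := by
          change x.1.1 * y.1.1 = _
          rw [hp x, hp y, mul_comb]
        rw [hp' _ _ _ h1]
        simp only [map_add, map_mul]
        rw [← htt]
        linear_combination (-(algebraMap F K (p x).2 * algebraMap F K (p y).2)) * hl }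
  have hf : ∀ x, f x = algebraMap F K (p x).1 + algebraMap F K (p x).2 * l := fun x => rfl
  have hinj1 : ∀ x, f x = 1 → x = 1 := by
    intro x hx
    rw [hf] at hx
    have hd := x.1.2
    rw [hp x, det_comb] at hd
    have hd' := congrArg (algebraMap F K) hd
    simp only [map_add, map_mul, map_pow, map_one] at hd'
    rw [← htt] at hd'
    obtain ⟨A, hA⟩ : ∃ A, A = algebraMap F K (p x).1 := ⟨_, rfl⟩
    obtain ⟨B, hB⟩ : ∃ B, B = algebraMap F K (p x).2 := ⟨_, rfl⟩
    rw [← hA, ← hB] at hx hd'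
    have h1 : B * t = 0 := by
      have h2 : (A + B * l) * (A + B * (l + t)) = 1 := by
        linear_combination hd' + (B ^ 2) * hl + (A * B * l + B ^ 2 * t * l) * hK2
      rw [hx, one_mul] at h2
      linear_combination h2 - hx
    have hB0 : B = 0 := (mul_eq_zero.1 h1).resolve_right ht0
    rw [hB0, zero_mul, add_zero] at hx
    have ha : (p x).1 = 1 := by
      apply (algebraMap F K).injective
      rw [← hA, hx, map_one]
    have hb : (p x).2 = 0 := by
      apply (algebraMap F K).injective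
      rw [← hB, hB0, map_zero]
    apply Subtype.ext
    apply Subtype.ext
    rw [hp x, ha, hb, one_smul, zero_smul, add_zero]
    rfl
  have hinj : Function.Injective f := (injective_iff_map_eq_one f).2 hinj1
  refine ⟨isCyclic_of_injective_ringHom f hinj, fun x hx hx2 => ?_⟩
  have h1 : f ⟨x, hx⟩ ^ 2 = 1 := by
    rw [← map_pow]
    have : (⟨x, hx⟩ : Subgroup.centralizer ({z} : Set SL₂)) ^ 2 = 1 := Subtype.ext hx2
    rw [this, map_one]
  have h2 : f ⟨x, hx⟩ = 1 := by
    have h3 : (f ⟨x, hx⟩ - 1) ^ 2 = 0 := by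
      linear_combination h1 + (1 - f ⟨x, hx⟩) * hK2
    exact sub_eq_zero.1 (pow_eq_zero_iff (two_ne_zero)|>.1 h3)
  exact congrArg Subtype.val (hinj1 _ h2)

/-! ### the number of elements -/

theorem card_cent [Finite F] {z : SL₂} (ht : z.1.trace ≠ 0) :
    Nat.card F - 1 ≤ Nat.card (Subgroup.centralizer ({z} : Set SL₂)) := by
  classical
  have hfF : Fintype F := Fintype.ofFinite F
  have h2 : (2 : F) = 0 := CharTwo.two_eq_zero
  obtain ⟨t, htt⟩ : ∃ t, t = z.1.trace := ⟨_, rfl⟩
  let R := {m : F // m ^ 2 + t * m + 1 ≠ 0}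
  have hcomb : ∀ m : R, ((1 + m.1 * (t / (m.1 ^ 2 + t * m.1 + 1))) • (1 : M₂) +
      (t / (m.1 ^ 2 + t * m.1 + 1)) • z.1).det = 1 := by
    intro m
    obtain ⟨b, hb⟩ : ∃ b, b = t / (m.1 ^ 2 + t * m.1 + 1) := ⟨_, rfl⟩
    have hbm : b * (m.1 ^ 2 + t * m.1 + 1) = t := by rw [hb, div_mul_cancel₀ _ m.2]
    rw [← hb, det_comb, ← htt]
    linear_combination b * hbm + (m.1 * b + b * t) * h2
  let g : Option R → Subgroup.centralizer ({z} : Set SL₂) := fun o => match o with
    | none => 1
    | some m => ⟨⟨_, hcomb m⟩, mem_cent.2 (comm_comb _ _ z)⟩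
  have hg0 : (g none).1.1 = (1 : F) • (1 : M₂) + (0 : F) • z.1 := by
    rw [one_smul, zero_smul, add_zero]
    rfl
  have hg1 : ∀ m : R, (g (some m)).1.1 = (1 + m.1 * (t / (m.1 ^ 2 + t * m.1 + 1))) • (1 : M₂) +
      (t / (m.1 ^ 2 + t * m.1 + 1)) • z.1 := fun m => rfl
  have ht' : t ≠ 0 := by rwa [htt]
  have hne : ∀ m : R, t / (m.1 ^ 2 + t * m.1 + 1) ≠ 0 := fun m => div_ne_zero ht' m.2
  have hinj : Function.Injective g := by
    intro o o' h
    have h1 := congrArg (fun x : Subgroup.centralizer ({z} : Set SL₂) => x.1.1) h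
    match o, o' with
    | none, none => rfl
    | none, some m =>
      exfalso
      have h3 := comb_inj ht (hg0.symm.trans (h1.trans (hg1 m)))
      exact hne m h3.2.symm
    | some m, none =>
      exfalso
      have h3 := comb_inj ht ((hg1 m).symm.trans (h1.trans hg0))
      exact hne m h3.2
    | some m, some m' =>
      have h3 := comb_inj ht ((hg1 m).symm.trans (h1.trans (hg1 m')))
      have h4 := add_left_cancel h3.1
      rw [← h3.2] at h4
      have h5 := mul_right_cancel₀ (hne m) h4
      rw [Subtype.ext h5]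
  have h3 := Nat.card_le_card_of_injective g hinj
  have h4 : Nat.card (Option R) = Nat.card R + 1 := by
    rw [Nat.card_eq_fintype_card, Nat.card_eq_fintype_card, Fintype.card_option]
  have h5 : Nat.card F ≤ Nat.card R + 2 := by
    rw [Nat.card_eq_fintype_card, Nat.card_eq_fintype_card, Fintype.card_subtype]
    have h6 := Finset.card_filter_add_card_filter_not (s := (Finset.univ : Finset F)) (fun m : F => m ^ 2 + t * m + 1 ≠ 0)
    rw [Finset.card_univ] at h6
    have h7 : (Finset.univ.filter fun m : F => ¬ (m ^ 2 + t * m + 1 ≠ 0)).card ≤ 2 := by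
      rcases (Finset.univ.filter fun m : F => ¬ (m ^ 2 + t * m + 1 ≠ 0)).eq_empty_or_nonempty with h | ⟨r, hr⟩
      · rw [h]
        simp
      · have hr' : r ^ 2 + t * r + 1 = 0 := by
          have := (Finset.mem_filter.1 hr).2
          rwa [not_not] at this
        refine (Finset.card_le_card (t := {r, r + t}) ?_).trans Finset.card_le_two
        intro m hm
        have hm' : m ^ 2 + t * m + 1 = 0 := by
          have := (Finset.mem_filter.1 hm).2
          rwa [not_not] at this
        have h8 : (m - r) * (m - (r + t)) = 0 := by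
          linear_combination hm' - hr' + (-(t * m) + r ^ 2 - m * r + t * r) * h2
        rw [Finset.mem_insert, Finset.mem_singleton]
        rcases mul_eq_zero.1 h8 with h | h
        · exact Or.inl (sub_eq_zero.1 h)
        · exact Or.inr (sub_eq_zero.1 h)
    omega
  omega

/-! ### the normalizer -/

theorem conj_eq {c n : SL₂} (ht : c.1.trace ≠ 0) (h : n * c * n⁻¹ ∈ Subgroup.centralizer ({c} : Set SL₂)) :
    n * c * n⁻¹ = c ∨ n * c * n⁻¹ = c⁻¹ := by
  have h2 : (2 : F) = 0 := CharTwo.two_eq_zero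
  obtain ⟨a, b, hab⟩ := exists_comb ht (mem_cent.1 h)
  have htr : (n * c * n⁻¹).1.trace = c.1.trace := by
    change (n.1 * c.1 * (n⁻¹).1).trace = _
    rw [trace_mul_comm, ← mul_assoc]
    have : (n⁻¹).1 * n.1 = 1 := congrArg Subtype.val (inv_mul_cancel n)
    rw [this, one_mul]
  have hb : b = 1 := by
    rw [hab, trace_comb] at htr
    exact mul_right_cancel₀ ht (htr.trans (one_mul _).symm)
  subst hb
  have hd := (n * c * n⁻¹).2
  rw [hab, det_comb] at hd
  have h3 : a * (a + c.1.trace) = 0 := by linear_combination hd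
  rcases mul_eq_zero.1 h3 with h4 | h4
  · left
    apply Subtype.ext
    rw [hab, h4, zero_smul, zero_add, one_smul]
  · right
    have h5 : a = c.1.trace := by linear_combination h4 - c.1.trace * h2
    refine eq_inv_of_mul_eq_one_left ?_
    apply Subtype.ext
    change (n * c * n⁻¹).1 * c.1 = 1
    rw [hab, h5, add_mul, smul_mul_assoc, one_mul, one_smul, ch2, ← add_assoc, ← two_smul F (c.1.trace • c.1), h2,
      zero_smul, zero_add]

theorem sq_mem {c n : SL₂} (ht : c.1.trace ≠ 0) (h : n * c * n⁻¹ ∈ Subgroup.centralizer ({c} : Set SL₂)) :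
    n ^ 2 ∈ Subgroup.centralizer ({c} : Set SL₂) := by
  rw [Subgroup.mem_centralizer_singleton_iff]
  have h2 : n ^ 2 * c * (n ^ 2)⁻¹ = c := by
    have e : n ^ 2 * c * (n ^ 2)⁻¹ = n * (n * c * n⁻¹) * n⁻¹ := by
      rw [pow_two]
      group
    rw [e]
    rcases conj_eq ht h with h1 | h1
    · rw [h1, h1]
    · rw [h1]
      have h3 : n * c⁻¹ * n⁻¹ = (n * c * n⁻¹)⁻¹ := by group
      rw [h3, h1, inv_inv]
  exact mul_inv_eq_iff_eq_mul.1 h2

/-- transvections -/
def up (s : F) : SL₂ := ⟨!![1, s; 0, 1], by rw [det_fin_two_of]; ring⟩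

theorem up_add (s s' : F) : up s * up s' = up (s + s') := by
  apply Subtype.ext
  change !![1, s; 0, 1] * !![1, s'; 0, 1] = !![1, s + s'; 0, 1]
  ext i j
  fin_cases i <;> fin_cases j <;> simp [Matrix.mul_apply, Fin.sum_univ_two, add_comm]

theorem up_zero : up (0 : F) = 1 := by
  apply Subtype.ext
  change !![1, 0; 0, 1] = (1 : M₂)
  exact one_fin_two.symm

theorem up_inv (s : F) : (up s)⁻¹ = up s := by
  have h2 : (2 : F) = 0 := CharTwo.two_eq_zero
  refine inv_eq_of_mul_eq_one_right ?_
  rw [up_add, ← two_mul, h2, zero_mul, up_zero]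

theorem up_ne {s : F} (hs : s ≠ 0) : up s ≠ 1 := by
  intro h
  have h1 := congrFun (congrFun (congrArg Subtype.val h) 0) 1
  apply hs
  simpa [up] using h1

theorem up_conj (s : F) (c : SL₂) : up s * c * (up s)⁻¹ = c → up s ∈ Subgroup.centralizer ({c} : Set SL₂) := by
  intro h
  rw [Subgroup.mem_centralizer_singleton_iff]
  exact mul_inv_eq_iff_eq_mul.1 h

/-- elements of the torus with the same trace -/
theorem eq_or_of_trace {c x y : SL₂} (ht : c.1.trace ≠ 0) (hx : x ∈ Subgroup.centralizer ({c} : Set SL₂))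
    (hy : y ∈ Subgroup.centralizer ({c} : Set SL₂)) (h : x.1.trace = y.1.trace) : y = x ∨ y = x⁻¹ := by
  have h2 : (2 : F) = 0 := CharTwo.two_eq_zero
  obtain ⟨a, b, hab⟩ := exists_comb ht (mem_cent.1 hx)
  obtain ⟨a', b', hab'⟩ := exists_comb ht (mem_cent.1 hy)
  have hb : b = b' := by
    have h1 := h
    rw [hab, hab', trace_comb, trace_comb] at h1
    exact mul_right_cancel₀ ht h1
  subst hb
  have hd := x.2
  have hd' := y.2
  rw [hab, det_comb] at hd
  rw [hab', det_comb] at hd'
  have h3 : (a - a') * (a + a' + c.1.trace * b) = 0 := by linear_combination hd - hd'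
  rcases mul_eq_zero.1 h3 with h4 | h4
  · left
    apply Subtype.ext
    rw [hab, hab', sub_eq_zero.1 h4]
  · right
    have htx : x.1.trace = b * c.1.trace := by rw [hab, trace_comb]
    have h5 : a' = x.1.trace + a := by
      rw [htx]
      linear_combination h4 - (a + c.1.trace * b) * h2
    have h6 : y.1 = x.1.trace • (1 : M₂) + x.1 := by
      rw [hab', h5, add_smul, add_assoc, ← hab]
    refine eq_inv_of_mul_eq_one_left ?_
    apply Subtype.ext
    change y.1 * x.1 = 1
    rw [h6, add_mul, smul_mul_assoc, one_mul, ch2, ← add_assoc, ← two_smul F (x.1.trace • x.1), h2,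
      zero_smul, zero_add]

/-- a field automorphism fixing the trace of a generator -/
theorem trace_cond [Finite F] {c : SL₂} (ht : c.1.trace ≠ 0)
    (hN : Nat.card F - 1 ≤ orderOf c) (h8 : 8 ≤ Nat.card F) (φ : F ≃+* F) (hφ : φ c.1.trace = c.1.trace) :
    ∀ a, φ a = a := by
  classical
  by_contra hcon
  push Not at hcon
  obtain ⟨a, ha⟩ := hcon
  have hfF : Fintype F := Fintype.ofFinite F
  let F0 : Finset F := Finset.univ.filter fun x => φ x = x
  have hF0 : ∀ x, x ∈ F0 ↔ φ x = x := fun x => by simp [F0]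
  -- the square of the order of the fixed field
  have hsq : F0.card * F0.card ≤ Nat.card F := by
    rw [← Finset.card_product, Nat.card_eq_fintype_card, ← Finset.card_univ]
    refine Finset.card_le_card_of_injOn (fun p => p.1 + p.2 * a) (fun _ _ => Finset.mem_coe.2 (Finset.mem_univ _)) ?_
    rintro ⟨x, y⟩ hxy ⟨x', y'⟩ hxy' h
    rw [Finset.mem_coe, Finset.mem_product] at hxy hxy'
    simp only at h hxy hxy'
    have hx := (hF0 x).1 hxy.1
    have hy := (hF0 y).1 hxy.2
    have hx' := (hF0 x').1 hxy'.1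
    have hy' := (hF0 y').1 hxy'.2
    by_cases hyy : y = y'
    · subst hyy
      have := add_right_cancel h
      rw [this]
    · exfalso
      apply ha
      have h1 : y - y' ≠ 0 := sub_ne_zero.2 hyy
      have h2 : a = (x' - x) / (y - y') := by
        rw [eq_div_iff h1]
        linear_combination h
      rw [h2, map_div₀, map_sub, map_sub, hx, hy, hx', hy']
  -- the powers
  have hpow : ∀ n : ℕ, ∃ x y : F, φ x = x ∧ φ y = y ∧ (c ^ n).1 = x • (1 : M₂) + y • c.1 := by
    intro n
    induction n with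
    | zero => exact ⟨1, 0, map_one φ, map_zero φ, by
        rw [pow_zero, one_smul, zero_smul, add_zero]
        rfl⟩
    | succ n ih =>
      obtain ⟨x, y, hx, hy, h⟩ := ih
      refine ⟨y, x + y * c.1.trace, hy, by rw [map_add, map_mul, hx, hy, hφ], ?_⟩
      have h1 : (c ^ (n + 1)).1 = (c ^ n).1 * c.1 := by
        rw [pow_succ]
        rfl
      rw [h1, h, add_mul, smul_mul_assoc, smul_mul_assoc, one_mul, ch2, smul_add, smul_smul, add_smul]
      abel
  have hcard := Finset.card_le_mul_card_image (s := Finset.range (orderOf c)) (f := fun n => (c ^ n).1.trace) 2 (by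
    intro b hb
    obtain ⟨n, hn, rfl⟩ := Finset.mem_image.1 hb
    have h1 : ((Finset.range (orderOf c)).filter fun m => (c ^ m).1.trace = (c ^ n).1.trace).card =
        (((Finset.range (orderOf c)).filter fun m => (c ^ m).1.trace = (c ^ n).1.trace).image fun m => c ^ m).card := by
      rw [Finset.card_image_of_injOn]
      intro m hm m' hm' h
      have hm1 := Finset.mem_range.1 (Finset.mem_filter.1 (Finset.mem_coe.1 hm)).1
      have hm2 := Finset.mem_range.1 (Finset.mem_filter.1 (Finset.mem_coe.1 hm')).1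
      exact pow_injOn_Iio_orderOf hm1 hm2 h
    rw [h1]
    refine (Finset.card_le_card (t := {c ^ n, (c ^ n)⁻¹}) ?_).trans Finset.card_le_two
    intro x hx
    obtain ⟨m, hm, rfl⟩ := Finset.mem_image.1 hx
    rw [Finset.mem_insert, Finset.mem_singleton]
    have hmem : ∀ k : ℕ, c ^ k ∈ Subgroup.centralizer ({c} : Set SL₂) := fun k => by
      rw [Subgroup.mem_centralizer_singleton_iff, ← pow_succ, ← pow_succ']
    exact eq_or_of_trace ht (hmem n) (hmem m) (Finset.mem_filter.1 hm).2.symm)
  have himg : ((Finset.range (orderOf c)).image fun n => (c ^ n).1.trace).card ≤ F0.card := by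
    refine Finset.card_le_card ?_
    intro b hb
    obtain ⟨n, -, rfl⟩ := Finset.mem_image.1 hb
    obtain ⟨x, y, hx, hy, h⟩ := hpow n
    rw [hF0, h, trace_comb, map_mul, hy, hφ]
  rw [Finset.card_range] at hcard
  have h5 : Nat.card F - 1 ≤ 2 * F0.card := hN.trans (hcard.trans (Nat.mul_le_mul_left 2 himg))
  obtain ⟨q, hq⟩ : ∃ q, Nat.card F = q + 1 := ⟨Nat.card F - 1, by omega⟩
  rw [hq] at hsq h5 h8
  rw [Nat.add_sub_cancel] at h5
  have h6 : q * q ≤ 4 * (q + 1) := by
    calc q * q ≤ (2 * F0.card) * (2 * F0.card) := Nat.mul_le_mul h5 h5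
      _ = 4 * (F0.card * F0.card) := by ring
      _ ≤ 4 * (q + 1) := Nat.mul_le_mul_left 4 hsq
  have h7 : 7 ≤ q := by omega
  nlinarith

/-- **F1.** -/
theorem stF1 [Finite F] (h4 : 4 ≤ Nat.card F) : StF1 F := by
  classical
  intro z hz ho
  have ht := trace_ne_zero hz ho
  obtain ⟨hcyc, hinv⟩ := isCyclic_cent ht
  obtain ⟨c0, hc0⟩ := hcyc.exists_generator
  obtain ⟨c, hc⟩ : ∃ c, c = c0.1 := ⟨_, rfl⟩
  have hC : Subgroup.centralizer ({z} : Set SL₂) = Subgroup.zpowers c := by
    apply le_antisymm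
    · intro x hx
      obtain ⟨n, hn⟩ := hc0 ⟨x, hx⟩
      refine ⟨n, ?_⟩
      have := congrArg Subtype.val hn
      rw [hc]
      exact this
    · rw [Subgroup.zpowers_le, hc]
      exact c0.2
  have hzC : z ∈ Subgroup.zpowers c := by
    rw [← hC, Subgroup.mem_centralizer_singleton_iff]
  have hc1 : c ≠ 1 := by
    intro h
    rw [h, Subgroup.zpowers_one_eq_bot, Subgroup.mem_bot] at hzC
    exact hz hzC
  have hcC : c ∈ Subgroup.centralizer ({z} : Set SL₂) := by
    rw [hC]
    exact Subgroup.mem_zpowers c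
  obtain ⟨htc, hcc⟩ := cent_eq ht hcC hc1
  have hord : Nat.card (Subgroup.centralizer ({z} : Set SL₂)) = orderOf c := by
    rw [hC, Nat.card_zpowers]
  have hodd : Odd (orderOf c) := by
    by_contra hcon
    rw [Nat.not_odd_iff_even] at hcon
    obtain ⟨m, hm⟩ := hcon
    have hpos := orderOf_pos c
    have h1 : c ^ m = 1 := hinv _ (pow_mem hcC m) (by rw [← pow_mul, mul_two, ← hm, pow_orderOf_eq_one])
    have h2 := Nat.le_of_dvd (by omega) (orderOf_dvd_of_pow_eq_one h1)
    omega
  have hN : Nat.card F - 1 ≤ orderOf c := by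
    rw [← hord]
    exact card_cent ht
  obtain ⟨u, hu⟩ : ∃ u : SL₂, ¬ ∀ y ∈ Subgroup.zpowers c, u * y * u⁻¹ ∈ Subgroup.zpowers c := by
    by_contra hcon
    push Not at hcon
    have h1 : ∀ s : F, s ≠ 0 → up s * c * (up s)⁻¹ = c⁻¹ := by
      intro s hs
      have h3 := hcon (up s) c (Subgroup.mem_zpowers c)
      rw [← hC, ← hcc] at h3
      rcases conj_eq htc h3 with h5 | h5
      · exfalso
        have h6 := up_conj s c h5
        rw [hcc] at h6
        refine up_ne hs (hinv _ h6 ?_)
        have h7 : up s * up s = 1 := by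
          rw [up_add, ← two_mul, CharTwo.two_eq_zero (R := F), zero_mul, up_zero]
        rw [pow_two, h7]
      · exact h5
    obtain ⟨s, hs0, hs1⟩ : ∃ s : F, s ≠ 0 ∧ s ≠ 1 := by
      by_contra h
      push Not at h
      have hfF : Fintype F := Fintype.ofFinite F
      have h5 : (Finset.univ : Finset F) ⊆ {0, 1} := by
        intro x _
        rw [Finset.mem_insert, Finset.mem_singleton]
        by_cases hx : x = 0
        · exact Or.inl hx
        · exact Or.inr (h x hx)
      have h6 := (Finset.card_le_card h5).trans Finset.card_le_two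
      rw [Finset.card_univ, ← Nat.card_eq_fintype_card] at h6
      omega
    have h5 : s + 1 ≠ 0 := by
      intro h
      apply hs1
      have h2 : (2 : F) = 0 := CharTwo.two_eq_zero
      linear_combination h - h2
    have h6 : up (s + 1) * c * (up (s + 1))⁻¹ = c := by
      rw [← up_add]
      have e : up s * up 1 * c * (up s * up 1)⁻¹ = up s * (up 1 * c * (up 1)⁻¹) * (up s)⁻¹ := by group
      rw [e, h1 1 one_ne_zero]
      have e2 : up s * c⁻¹ * (up s)⁻¹ = (up s * c * (up s)⁻¹)⁻¹ := by group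
      rw [e2, h1 s hs0, inv_inv]
    have h7 := h1 (s + 1) h5
    rw [h6] at h7
    -- `c = c⁻¹`
    have h8 : c ^ 2 = 1 := by
      rw [pow_two]
      nth_rewrite 1 [h7]
      exact inv_mul_cancel c
    exact hc1 (hinv c hcC h8)
  refine ⟨c, u, hC, hodd, hN, ?_, ?_, hu, ?_⟩
  · intro y hy hy1
    rw [← hC] at hy ⊢
    exact (cent_eq ht hy hy1).2
  · intro n hn
    have h1 := hn c (Subgroup.mem_zpowers c)
    rw [← hC, ← hcc] at h1 ⊢
    exact sq_mem htc h1
  · intro h8 φ hφ
    exact trace_cond htc hN h8 φ hφ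

end char2

end Cfsg.Agent.H193.FC
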